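import Cfsg.Agent.Helper28.HsGa
import Cfsg.Agent.S0428
import Cfsg.Prelude.Def_Sporadic

set_option autoImplicit false
set_option linter.unusedSectionVars false
set_option linter.unusedVariables false

namespace Cfsg.Agent.Helper28.HsG

open Cfsg Cfsg.Agent.Helper28.Leech Cfsg.Agent.Helper3

/-- elements of `Co0` fixing the standard pair preserve the 100 vectors -/
theorem xs_pres (g : Equiv.Perm leechLattice) (hg : g ∈ Co0) (h1 : g u5L = u5L)
    (h2 : g (-u5bL) = -u5bL) {y : leechLattice} (hy : y ∈ XS) : g y ∈ XS := by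
  have h := (XS_iff y).mpr hy
  rw [← XS_iff]
  refine ⟨by rw [hg.2]; exact h.1, ?_, ?_⟩
  · have d := co0_dot g hg u5L y
    rw [h1] at d
    exact d.trans h.2.1
  · have d := co0_dot g hg (-u5bL) y
    rw [h2] at d
    exact d.trans h.2.2

theorem gam_mu_const [DecidableEq XV] [DecidableRel Gam.Adj] (x z z' : XV) (hz : z ≠ x)
    (hz' : z' ≠ x) (hxz : ¬ Gam.Adj x z) (hxz' : ¬ Gam.Adj x z') :
    (Srg.nb Gam x ∩ Srg.nb Gam z).card ≤ (Srg.nb Gam x ∩ Srg.nb Gam z').card := by
  rw [gam_adj] at hxz hxz'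
  obtain ⟨g, hg1, hg2, hg3, hg4⟩ :=
    (hs_rank3 u5L (-u5bL) x.1 std_v std_w std_vw ((XS_iff x.1).mpr x.2)).2.2
      z.1 ((XS_iff z.1).mpr z.2) z'.1 ((XS_iff z'.1).mpr z'.2)
      (fun h => hz (Subtype.ext h)) (fun h => hz' (Subtype.ext h))
      ⟨fun h => absurd h hxz, fun h => absurd h hxz'⟩
  have hg1' : (g : Equiv.Perm leechLattice) u5L = u5L := hg1
  have hg2' : (g : Equiv.Perm leechLattice) (-u5bL) = -u5bL := hg2
  have hg3' : (g : Equiv.Perm leechLattice) x.1 = x.1 := hg3
  have hg4' : (g : Equiv.Perm leechLattice) z.1 = z'.1 := hg4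
  apply Finset.card_le_card_of_injOn (fun y : XV =>
    (⟨(g : Equiv.Perm leechLattice) y.1, xs_pres g.1 g.2 hg1' hg2' y.2⟩ : XV))
  · intro y hy
    simp only [Finset.mem_coe, Finset.mem_inter, Srg.mem_nb, gam_adj] at hy ⊢
    constructor
    · have d := co0_dot g.1 g.2 x.1 y.1
      rw [hg3'] at d
      exact d.trans hy.1
    · have d := co0_dot g.1 g.2 z.1 y.1
      rw [hg4'] at d
      exact d.trans hy.2
  · intro y _ y' _ hyy
    have h := congrArg (fun t : XV => t.1) hyy
    exact Subtype.ext ((g : Equiv.Perm leechLattice).injective h)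

theorem gam_mu [DecidableEq XV] [DecidableRel Gam.Adj] (x z : XV) (hzx : x ≠ z)
    (hxz : ¬ Gam.Adj x z) : (Srg.nb Gam x ∩ Srg.nb Gam z).card = 6 := by
  have hQ : (Srg.Qs Gam x).card = 77 := by
    have h1 : (Finset.univ : Finset XV) = insert x (Srg.nb Gam x) ∪ Srg.Qs Gam x := by
      ext y
      simp only [Finset.mem_univ, Finset.mem_union, Finset.mem_insert, Srg.mem_nb, Srg.mem_Qs,
        true_iff]
      tauto
    have h2 : Disjoint (insert x (Srg.nb Gam x)) (Srg.Qs Gam x) := by
      rw [Finset.disjoint_left]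
      intro y hy hyQ
      rw [Srg.mem_Qs] at hyQ
      rw [Finset.mem_insert, Srg.mem_nb] at hy
      rcases hy with hy | hy
      · exact hyQ.1 hy
      · exact hyQ.2 hy
    have h3 : x ∉ Srg.nb Gam x := by
      rw [Srg.mem_nb]
      exact Gam.irrefl
    have h4 := congrArg Finset.card h1
    rw [Finset.card_union_of_disjoint h2, Finset.card_insert_of_notMem h3, Finset.card_univ,
      card_XV, gam_deg] at h4
    omega
  have key := Finset.sum_card_bipartiteAbove_eq_sum_card_bipartiteBelow (s := Srg.nb Gam x)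
    (t := Srg.Qs Gam x) (fun (y : XV) (w : XV) => Gam.Adj y w)
  have hA : ∀ y ∈ Srg.nb Gam x, ((Srg.Qs Gam x).bipartiteAbove
      (fun (y : XV) (w : XV) => Gam.Adj y w) y).card = 21 := by
    intro y hy
    rw [Srg.mem_nb] at hy
    have h1 : Srg.nb Gam y = insert x ((Srg.Qs Gam x).bipartiteAbove
        (fun (y : XV) (w : XV) => Gam.Adj y w) y) := by
      ext w
      simp only [Finset.bipartiteAbove, Finset.mem_insert, Finset.mem_filter, Srg.mem_nb,
        Srg.mem_Qs]
      constructor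
      · intro hyw
        by_cases hwx : w = x
        · exact Or.inl hwx
        · refine Or.inr ⟨⟨hwx, ?_⟩, hyw⟩
          intro hxw
          exact gam_no_tri x y w ((gam_adj x y).mp hy) ((gam_adj x w).mp hxw)
            ((gam_adj y w).mp hyw)
      · rintro (hwx | ⟨-, hyw⟩)
        · rw [hwx]
          exact hy.symm
        · exact hyw
    have h2 : x ∉ (Srg.Qs Gam x).bipartiteAbove (fun (y : XV) (w : XV) => Gam.Adj y w) y := by
      simp only [Finset.bipartiteAbove, Finset.mem_filter, Srg.mem_Qs]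
      intro h
      exact h.1.1 rfl
    have h3 := gam_deg y
    rw [h1, Finset.card_insert_of_notMem h2] at h3
    omega
  have hB : ∀ w ∈ Srg.Qs Gam x, ((Srg.nb Gam x).bipartiteBelow
      (fun (y : XV) (w : XV) => Gam.Adj y w) w).card = (Srg.nb Gam x ∩ Srg.nb Gam z).card := by
    intro w hw
    rw [Srg.mem_Qs] at hw
    have h1 : (Srg.nb Gam x).bipartiteBelow (fun (y : XV) (w : XV) => Gam.Adj y w) w
        = Srg.nb Gam x ∩ Srg.nb Gam w := by
      ext y
      simp only [Finset.bipartiteBelow, Finset.mem_filter, Finset.mem_inter, Srg.mem_nb]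
      constructor
      · rintro ⟨h1, h2⟩
        exact ⟨h1, h2.symm⟩
      · rintro ⟨h1, h2⟩
        exact ⟨h1, h2.symm⟩
    rw [h1]
    exact le_antisymm (gam_mu_const x w z hw.1 hzx.symm hw.2 hxz)
      (gam_mu_const x z w hzx.symm hw.1 hxz hw.2)
  rw [Finset.sum_congr rfl hA, Finset.sum_congr rfl hB, Finset.sum_const, Finset.sum_const,
    smul_eq_mul, smul_eq_mul, gam_deg, hQ] at key
  omega

/-- the graph on the 100 vectors is strongly regular with parameters (100, 22, 0, 6) -/
theorem gam_srg [DecidableEq XV] [DecidableRel Gam.Adj] : Srg.Srg100 Gam := by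
  refine ⟨card_XV, gam_deg, ?_, ?_⟩
  · intro v w hvw
    rw [Finset.eq_empty_iff_forall_notMem]
    intro a ha
    rw [Finset.mem_inter, Srg.mem_nb, Srg.mem_nb] at ha
    exact gam_no_tri v w a ((gam_adj v w).mp hvw) ((gam_adj v a).mp ha.1)
      ((gam_adj w a).mp ha.2)
  · intro v w hne hnadj
    exact gam_mu v w hne hnadj

theorem srg100_iso {V W : Type*} [Fintype V] [DecidableEq V] [Fintype W] [DecidableEq W]
    {G : SimpleGraph V} {H : SimpleGraph W} [DecidableRel G.Adj] [DecidableRel H.Adj]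
    (hG : Srg.Srg100 G) (hH : Srg.Srg100 H) : Nonempty (G ≃g H) := by
  obtain ⟨o⟩ : Nonempty V := Fintype.card_pos_iff.mp (by rw [hG.card]; norm_num)
  obtain ⟨o'⟩ : Nonempty W := Fintype.card_pos_iff.mp (by rw [hH.card]; norm_num)
  obtain ⟨e, he⟩ := Hyp.s3622_iso (Srg.card_pts hG o) (Srg.card_pts hH o')
    (Srg.locB_steiner hG o) (Srg.locB_steiner hH o')
  exact Srg.graph_iso hG hH o o' e he

theorem gs_fix1 (k : GS) : ((k : Co0) : Equiv.Perm leechLattice) u5L = u5L :=
  (Subgroup.mem_inf.mp k.2).1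

theorem gs_fix2 (k : GS) : ((k : Co0) : Equiv.Perm leechLattice) (-u5bL) = -u5bL :=
  (Subgroup.mem_inf.mp k.2).2

theorem gs_iff (k : GS) (y : leechLattice) :
    ((k : Co0) : Equiv.Perm leechLattice) y ∈ XS ↔ y ∈ XS := by
  constructor
  · intro h
    have h1 := xs_pres (((k⁻¹ : GS) : Co0) : Equiv.Perm leechLattice) ((k⁻¹ : GS) : Co0).2
      (gs_fix1 k⁻¹) (gs_fix2 k⁻¹) h
    have h2 : (((k⁻¹ : GS) : Co0) : Equiv.Perm leechLattice)
        (((k : Co0) : Equiv.Perm leechLattice) y) = y := by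
      show (((k : Co0) : Equiv.Perm leechLattice))⁻¹
        (((k : Co0) : Equiv.Perm leechLattice) y) = y
      rw [Equiv.Perm.inv_eq_iff_eq]
    rw [h2] at h1
    exact h1
  · intro h
    exact xs_pres _ (k : Co0).2 (gs_fix1 k) (gs_fix2 k) h

/-- the automorphism of the graph induced by an element of the standard HS group -/
def actIso (k : GS) : Gam ≃g Gam where
  toEquiv := (((k : Co0) : Equiv.Perm leechLattice)).subtypePerm (gs_iff k)
  map_rel_iff' := by
    intro a b
    rw [gam_adj, gam_adj]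
    show dotInt ((((k : Co0) : Equiv.Perm leechLattice) a.1 : leechLattice) : GolayPt → ℤ)
      ((((k : Co0) : Equiv.Perm leechLattice) b.1 : leechLattice) : GolayPt → ℤ) = 8 ↔ _
    rw [co0_dot _ (k : Co0).2]

theorem actIso_apply (k : GS) (y : XV) :
    ((actIso k y : XV) : leechLattice) = ((k : Co0) : Equiv.Perm leechLattice) y.1 := rfl

/-- the action on the graph, as a homomorphism -/
def rho : GS →* (Gam ≃g Gam) :=
  MonoidHom.mk' actIso (by
    intro a b
    apply RelIso.ext
    intro y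
    apply Subtype.ext
    rfl)

theorem rho_apply (k : GS) (y : XV) :
    ((rho k y : XV) : leechLattice) = ((k : Co0) : Equiv.Perm leechLattice) y.1 := rfl

theorem rho_inj : Function.Injective rho := by
  rw [← MonoidHom.ker_eq_bot_iff]
  haveI := hs_std_simple
  rcases (MonoidHom.normal_ker rho).eq_bot_or_eq_top with h | h
  · exact h
  · exfalso
    have h22 := (hs_rank3 u5L (-u5bL) v0 std_v std_w std_vw ((XS_iff v0).mpr v0_XS)).1
    have hne : {y : leechLattice | (sqNorm (y : GolayPt → ℤ) = 32 ∧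
        dotInt (u5L : GolayPt → ℤ) (y : GolayPt → ℤ) = 24 ∧
        dotInt ((-u5bL : leechLattice) : GolayPt → ℤ) (y : GolayPt → ℤ) = -24) ∧
        dotInt (v0 : GolayPt → ℤ) (y : GolayPt → ℤ) = 8}.Nonempty :=
      Set.nonempty_of_ncard_ne_zero (by rw [h22]; norm_num)
    obtain ⟨y, hy⟩ := hne
    obtain ⟨y', hy', hyy⟩ := Set.exists_ne_of_one_lt_ncard (by rw [h22]; norm_num) y
    have hy0 : y ≠ v0 := by
      intro h0
      have h1 := hy.2
      rw [h0, dot_self', v0_norm] at h1
      omega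
    have hy0' : y' ≠ v0 := by
      intro h0
      have h1 := hy'.2
      rw [h0, dot_self', v0_norm] at h1
      omega
    obtain ⟨g, hg1, hg2, hg3, hg4⟩ :=
      (hs_rank3 u5L (-u5bL) v0 std_v std_w std_vw ((XS_iff v0).mpr v0_XS)).2.2
        y hy.1 y' hy'.1 hy0 hy0' ⟨fun _ => hy'.2, fun _ => hy.2⟩
    have hgmem : g ∈ GS := Subgroup.mem_inf.mpr ⟨hg1, hg2⟩
    have hk : (⟨g, hgmem⟩ : GS) ∈ rho.ker := by
      rw [h]
      exact Subgroup.mem_top _
    rw [MonoidHom.mem_ker] at hk
    have h1 := rho_apply ⟨g, hgmem⟩ ⟨y, (XS_iff y).mp hy.1⟩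
    rw [hk] at h1
    have h2 : (g : Equiv.Perm leechLattice) y = y' := hg4
    have h3 : y = (g : Equiv.Perm leechLattice) y := h1
    exact hyy (h2.symm.trans h3.symm)

/-- the automorphism group of the point-block graph of an S(3, 6, 22) contains a simple
group of order 44352000 -/
theorem hs_in_pbg {α : Type*} [Fintype α] (hα : Fintype.card α = 22) {B : Set (Finset α)}
    (hB : Cfsg.IsSteinerSystem 3 6 B) :
    ∃ H : Subgroup (Cfsg.pointBlockGraph B ≃g Cfsg.pointBlockGraph B), Cfsg.IsHS H := by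
  classical
  haveI : Fintype B := Fintype.ofFinite B
  have hP := Cfsg.Agent.S0428.result hα hB
  have hP' := Srg.srg100_of _ hP
  obtain ⟨ψ⟩ := srg100_iso gam_srg hP'
  obtain ⟨c, hc⟩ : ∃ c : (Gam ≃g Gam) →* (Cfsg.pointBlockGraph B ≃g Cfsg.pointBlockGraph B),
      ∀ f x, c f x = ψ (f (ψ.symm x)) :=
    ⟨MonoidHom.mk' (fun f => (ψ.symm.trans f).trans ψ) (by
      intro a b
      apply RelIso.ext
      intro x
      show ψ ((a * b) (ψ.symm x)) = ψ (a (ψ.symm (ψ (b (ψ.symm x)))))
      rw [RelIso.symm_apply_apply, RelIso.mul_apply]), fun f x => rfl⟩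
  have hcinj : Function.Injective c := by
    intro f f' hff
    apply RelIso.ext
    intro x
    have h1 := congrArg (fun t : Cfsg.pointBlockGraph B ≃g Cfsg.pointBlockGraph B => t (ψ x)) hff
    have h2 : c f (ψ x) = c f' (ψ x) := h1
    rw [hc, hc, RelIso.symm_apply_apply] at h2
    exact ψ.injective h2
  have hinj : Function.Injective (c.comp rho) := hcinj.comp rho_inj
  obtain ⟨e⟩ : Nonempty (GS ≃* (c.comp rho).range) := ⟨MonoidHom.ofInjective hinj⟩
  haveI := hs_std_simple
  refine ⟨(c.comp rho).range, e.symm.isSimpleGroup, ?_⟩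
  rw [Nat.card_congr e.symm.toEquiv]
  exact hs_card u5L (-u5bL) std_v std_w std_vw

end Cfsg.Agent.Helper28.HsG
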