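import Mathlib

set_option autoImplicit false

namespace Cfsg.Agent.S4138P

/-- split a positive number into a part prime to `k` and a part all of whose primes divide `k` -/
theorem h28_nat_split (o k : ℕ) (ho : 0 < o) :
    ∃ b c : ℕ, o = b * c ∧ b.Coprime c ∧ b.Coprime k ∧ ∀ q : ℕ, q.Prime → q ∣ c → q ∣ k := by
  classical
  have hne : ((Nat.divisors o).filter (fun d => Nat.Coprime d k)).Nonempty :=
    ⟨1, by simp [ho.ne']⟩
  obtain ⟨b, hb, hmax⟩ := Finset.exists_max_image _ (fun d => d) hne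
  rw [Finset.mem_filter, Nat.mem_divisors] at hb
  obtain ⟨⟨hbo, _⟩, hbk⟩ := hb
  obtain ⟨c, hc⟩ := hbo
  have hb0 : 0 < b := Nat.pos_of_ne_zero (by rintro rfl; simp at hc; omega)
  have key : ∀ q : ℕ, q.Prime → q ∣ c → q ∣ k := by
    intro q hq hqc
    by_contra hqk
    have h1 : Nat.Coprime (b * q) k :=
      Nat.Coprime.mul_left hbk ((Nat.Prime.coprime_iff_not_dvd hq).mpr hqk)
    have h2 : b * q ∣ o := by
      rw [hc]
      exact Nat.mul_dvd_mul_left b hqc
    have h3 := hmax (b * q) (by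
      rw [Finset.mem_filter, Nat.mem_divisors]
      exact ⟨⟨h2, ho.ne'⟩, h1⟩)
    have h4 : b * 2 ≤ b * q := Nat.mul_le_mul_left b hq.two_le
    have h3' : b * q ≤ b := h3
    omega
  refine ⟨b, c, hc, ?_, hbk, key⟩
  by_contra hncop
  obtain ⟨q, hq, hqb, hqc⟩ := Nat.Prime.not_coprime_iff_dvd.mp hncop
  have hqk := key q hq hqc
  have h5 := Nat.dvd_gcd hqb hqk
  rw [Nat.Coprime] at hbk
  rw [hbk] at h5
  exact hq.one_lt.ne' (Nat.dvd_one.mp h5)

/-- (Z1) an element with a central power splits as (part with primes dividing `k`) times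
(central part) -/
theorem h28_split_central {G : Type*} [Group G] [Finite G] (a : G) (k : ℕ) (hk : 0 < k)
    (hak : a ^ k ∈ Subgroup.center G) :
    ∃ a0 z : G, a = a0 * z ∧ z ∈ Subgroup.center G ∧ a0 ∈ Subgroup.zpowers a ∧
      z ∈ Subgroup.zpowers a ∧ (∀ q : ℕ, q.Prime → q ∣ orderOf a0 → q ∣ k) := by
  have ho : 0 < orderOf a := orderOf_pos a
  obtain ⟨b, c, hbc, hcop, hbk, hprime⟩ := h28_nat_split (orderOf a) k ho
  obtain ⟨u, hu1, hu2⟩ := Nat.chineseRemainder hcop 0 1
  obtain ⟨v, hv1, hv2⟩ := Nat.chineseRemainder hcop 1 0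
  refine ⟨a ^ u, a ^ v, ?_, ?_, ⟨u, by simp⟩, ⟨v, by simp⟩, ?_⟩
  · rw [← pow_add]
    have h1 : u + v ≡ 1 [MOD b * c] := by
      apply (Nat.modEq_and_modEq_iff_modEq_mul hcop).mp
      exact ⟨by simpa using hu1.add hv1, by simpa using hu2.add hv2⟩
    rw [← hbc] at h1
    have h2 := (pow_eq_pow_iff_modEq (x := a)).mpr h1
    rw [h2, pow_one]
  · have hzb : (a ^ v) ^ b = 1 := by
      rw [← pow_mul]
      apply orderOf_dvd_iff_pow_eq_one.mp
      rw [hbc]
      obtain ⟨t, ht⟩ := (Nat.modEq_zero_iff_dvd.mp hv2)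
      rw [ht]
      exact ⟨t, by ring⟩
    have hzo : orderOf (a ^ v) ∣ b := orderOf_dvd_of_pow_eq_one hzb
    have hcop2 : k.Coprime (orderOf (a ^ v)) := (Nat.Coprime.coprime_dvd_left hzo hbk).symm
    obtain ⟨w, hw⟩ := exists_pow_eq_self_of_coprime hcop2
    rw [← hw]
    apply Subgroup.pow_mem
    have e : (a ^ v) ^ k = (a ^ k) ^ v := by
      rw [← pow_mul, ← pow_mul, mul_comm]
    rw [e]
    exact Subgroup.pow_mem _ hak v
  · intro q hq hqd
    apply hprime q hq
    have h1 : (a ^ u) ^ c = 1 := by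
      rw [← pow_mul]
      apply orderOf_dvd_iff_pow_eq_one.mp
      rw [hbc]
      obtain ⟨t, ht⟩ := (Nat.modEq_zero_iff_dvd.mp hu1)
      rw [ht]
      exact ⟨t, by ring⟩
    exact hqd.trans (orderOf_dvd_of_pow_eq_one h1)

/-- (Z2) the element `x0` and the abelian normal subgroup `T = ⟨x0^G⟩` of step (0) -/
theorem h28_x0_T {G : Type*} [Group G] [Finite G] (m n k : ℕ) (hcop : m.Coprime n) (hk : 0 < k)
    (hkm : k ∣ m) (x : G) (hxk : x ^ k ∈ Subgroup.center G)
    (hconj : ∀ g h : G, (g * x * g⁻¹) * (h * x * h⁻¹) = (h * x * h⁻¹) * (g * x * g⁻¹)) :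
    ∃ (x0 : G) (T : Subgroup G), x0 ∈ Subgroup.zpowers x ∧ x * x0⁻¹ ∈ Subgroup.center G ∧
      Subgroup.centralizer ({x0} : Set G) = Subgroup.centralizer ({x} : Set G) ∧
      (∀ q : ℕ, q.Prime → q ∣ orderOf x0 → q ∣ m) ∧ T.Normal ∧ x0 ∈ T ∧
      (∀ s ∈ T, ∀ t ∈ T, s * t = t * s) ∧ T ≤ Subgroup.centralizer ({x} : Set G) ∧
      (Nat.card T).Coprime n ∧ (∀ t ∈ T, (orderOf t).Coprime n) := by
  classical
  obtain ⟨x0, z, hxz, hz, hx0, -, hprime⟩ := h28_split_central x k hk hxk
  obtain ⟨j, hj⟩ := Subgroup.mem_zpowers_iff.mp hx0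
  have hzc : ∀ g : G, g * z = z * g := fun g => Subgroup.mem_center_iff.mp hz g
  have econj : ∀ g : G, g * x0 * g⁻¹ = (g * x * g⁻¹) ^ j := by
    intro g
    rw [← hj, conj_zpow]
  have hconj0 : ∀ g h : G,
      (g * x0 * g⁻¹) * (h * x0 * h⁻¹) = (h * x0 * h⁻¹) * (g * x0 * g⁻¹) := by
    intro g h
    rw [econj g, econj h]
    have hc : Commute (g * x * g⁻¹) (h * x * h⁻¹) := hconj g h
    exact (hc.zpow_zpow j j).eq
  have hprime' : ∀ q : ℕ, q.Prime → q ∣ orderOf x0 → q ∣ m :=
    fun q hq hqd => (hprime q hq hqd).trans hkm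
  have hx0n : (orderOf x0).Coprime n := by
    by_contra hncop
    obtain ⟨q, hq, hq1, hq2⟩ := Nat.Prime.not_coprime_iff_dvd.mp hncop
    have h5 := Nat.dvd_gcd (hprime' q hq hq1) hq2
    rw [Nat.Coprime] at hcop
    rw [hcop] at h5
    exact hq.one_lt.ne' (Nat.dvd_one.mp h5)
  -- the generating set
  have hS : ∀ s ∈ Group.conjugatesOfSet ({x0} : Set G), ∃ g : G, s = g * x0 * g⁻¹ := by
    intro s hs
    rw [Group.mem_conjugatesOfSet_iff] at hs
    obtain ⟨b, hb, hbs⟩ := hs
    rw [Set.mem_singleton_iff] at hb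
    subst hb
    obtain ⟨c, hc⟩ := isConj_iff.mp hbs
    exact ⟨c, hc.symm⟩
  have hTdef : Subgroup.normalClosure ({x0} : Set G) =
      Subgroup.closure (Group.conjugatesOfSet ({x0} : Set G)) := rfl
  -- `T` is abelian
  have hT1 : ∀ t ∈ Subgroup.normalClosure ({x0} : Set G),
      ∀ s ∈ Group.conjugatesOfSet ({x0} : Set G), s * t = t * s := by
    intro t ht s hs
    have hle : Subgroup.normalClosure ({x0} : Set G) ≤ Subgroup.centralizer ({s} : Set G) := by
      rw [hTdef, Subgroup.closure_le]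
      intro r hr
      rw [SetLike.mem_coe, Subgroup.mem_centralizer_iff]
      intro s' hs'
      rw [Set.mem_singleton_iff] at hs'
      rw [hs']
      obtain ⟨g, rfl⟩ := hS s hs
      obtain ⟨h, rfl⟩ := hS r hr
      exact hconj0 g h
    have h1 := Subgroup.mem_centralizer_iff.mp (hle ht) s (Set.mem_singleton s)
    exact h1
  have hTab : ∀ s ∈ Subgroup.normalClosure ({x0} : Set G),
      ∀ t ∈ Subgroup.normalClosure ({x0} : Set G), s * t = t * s := by
    intro s hs t ht
    have hle : Subgroup.normalClosure ({x0} : Set G) ≤ Subgroup.centralizer ({t} : Set G) := by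
      rw [hTdef, Subgroup.closure_le]
      intro r hr
      rw [SetLike.mem_coe, Subgroup.mem_centralizer_iff]
      intro t' ht'
      rw [Set.mem_singleton_iff] at ht'
      rw [ht']
      exact (hT1 t ht r hr).symm
    have h1 := Subgroup.mem_centralizer_iff.mp (hle hs) t (Set.mem_singleton t)
    exact h1.symm
  have hx0T : x0 ∈ Subgroup.normalClosure ({x0} : Set G) :=
    Subgroup.subset_normalClosure (Set.mem_singleton x0)
  -- orders
  have hTpow : ∀ t ∈ Subgroup.normalClosure ({x0} : Set G), t ^ orderOf x0 = 1 := by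
    intro t ht
    rw [hTdef] at ht
    induction ht using Subgroup.closure_induction with
    | mem s hs =>
      obtain ⟨g, rfl⟩ := hS s hs
      rw [conj_pow, pow_orderOf_eq_one]
      group
    | one => exact one_pow _
    | mul a b ha hb iha ihb =>
      have hc : Commute a b := hTab a (hTdef ▸ ha) b (hTdef ▸ hb)
      rw [hc.mul_pow, iha, ihb, one_mul]
    | inv a ha iha => rw [inv_pow, iha, inv_one]
  have hTord : ∀ t ∈ Subgroup.normalClosure ({x0} : Set G), (orderOf t).Coprime n := by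
    intro t ht
    exact Nat.Coprime.coprime_dvd_left (orderOf_dvd_of_pow_eq_one (hTpow t ht)) hx0n
  refine ⟨x0, Subgroup.normalClosure ({x0} : Set G), hx0, ?_, ?_, hprime',
    Subgroup.normalClosure_normal, hx0T, hTab, ?_, ?_, hTord⟩
  · have e : x * x0⁻¹ = z := by
      rw [hxz, hzc x0]
      group
    rw [e]
    exact hz
  · ext g
    simp only [Subgroup.mem_centralizer_iff, Set.mem_singleton_iff, forall_eq]
    rw [hxz]
    constructor
    · intro h
      rw [mul_assoc, ← hzc g, ← mul_assoc, h, mul_assoc]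
    · intro h
      have h1 : x0 * z * g = x0 * g * z := by rw [mul_assoc, ← hzc g, ← mul_assoc]
      rw [h1] at h
      have h2 : g * x0 * z = g * (x0 * z) := by group
      rw [← h2] at h
      exact mul_right_cancel h
  · intro t ht
    rw [Subgroup.mem_centralizer_iff]
    intro x' hx'
    rw [Set.mem_singleton_iff] at hx'
    rw [hx', hxz]
    have h1 := hTab x0 hx0T t ht
    rw [mul_assoc, ← hzc t, ← mul_assoc, h1, mul_assoc]
  · by_contra hncop
    obtain ⟨q, hq, hq1, hq2⟩ := Nat.Prime.not_coprime_iff_dvd.mp hncop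
    haveI : Fact q.Prime := ⟨hq⟩
    obtain ⟨t, ht⟩ := exists_prime_orderOf_dvd_card'
      (G := ↥(Subgroup.normalClosure ({x0} : Set G))) q hq1
    have h1 := hTord (t : G) t.2
    rw [Subgroup.orderOf_coe, ht] at h1
    have h5 := Nat.dvd_gcd (dvd_refl q) hq2
    rw [Nat.Coprime] at h1
    rw [h1] at h5
    exact hq.one_lt.ne' (Nat.dvd_one.mp h5)

end Cfsg.Agent.S4138P
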